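import Cfsg.Agent.CPOutside.Basic

/-!
The quotient by a non-solvable normal subgroup outside which all elements have prime power order
is solvable.
-/

set_option autoImplicit false

namespace CfsgLib.CPOutside

open Cfsg

universe u

variable {G : Type u} [Group G] [Finite G] {N : Subgroup G}

/-- Independent commuting elements of equal prime order are excluded. -/
theorem pair_excluded [N.Normal] (hns : ¬ Group.IsSolvable ↥N)
    (h : ∀ x : G, x ∉ N → IsPrimePow (orderOf x)) (hQ : ¬ Group.IsSolvable (G ⧸ N)) {s : ℕ}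
    (hs : s.Prime) (a b : G ⧸ N) (ha : orderOf a = s) (hb : orderOf b = s) (hab : Commute a b) :
    b ∈ Subgroup.zpowers a := by
  classical
  obtain ⟨r, hr, hrN, hrs⟩ : ∃ r : ℕ, r.Prime ∧ r ∣ Nat.card N ∧ r ≠ s := by
    by_contra! hno
    exact hns (CfsgLib.Chars.Apps.isSolvable_of_primeFactors_subset N hs hs fun q hq hd =>
      Or.inl (hno q hq hd))
  haveI : Fact r.Prime := ⟨hr⟩
  obtain ⟨R⟩ : Nonempty (Sylow r N) := inferInstance
  set R' : Subgroup G := (R : Subgroup N).map N.subtype with hR'
  have hfr := Sylow.normalizer_sup_eq_top R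
  -- a minimal supplement
  obtain ⟨M, ⟨hMR, hMN⟩, hmin⟩ := (Set.toFinite
    {M : Subgroup G | M ≤ Subgroup.normalizer (R' : Set G) ∧ M ⊔ N = ⊤}).exists_minimal
      ⟨_, le_rfl, hfr⟩
  have hfrat : N.subgroupOf M ≤ frattini ↥M := by
    show N.subgroupOf M ≤ Order.radical (Subgroup M)
    refine le_iInf₂ fun K hK => ?_
    by_contra hle
    have hsup : K ⊔ N.subgroupOf M = ⊤ := by
      refine hK.2 _ ?_
      exact left_lt_sup.mpr hle
    have h1 : K.map M.subtype ⊔ N = ⊤ := by
      refine eq_top_iff.mpr (hMN.ge.trans ?_)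
      refine sup_le ?_ le_sup_right
      have h2 := congrArg (Subgroup.map M.subtype) hsup
      rw [Subgroup.map_sup, Subgroup.subgroupOf_map_subtype, ← MonoidHom.range_eq_map,
        Subgroup.range_subtype] at h2
      exact h2.ge.trans (sup_le le_sup_left (le_sup_of_le_right inf_le_left))
    have h3 := hmin ⟨(Subgroup.map_subtype_le K).trans hMR, h1⟩ (Subgroup.map_subtype_le K)
    refine hK.1 (eq_top_iff.mpr fun m _ => ?_)
    obtain ⟨k, hk, e⟩ := h3 m.2
    rwa [← Subtype.ext e]
  set L := N.subgroupOf M with hL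
  haveI : Group.IsNilpotent (frattini ↥M) := frattini_nilpotent
  haveI : Group.IsNilpotent L := nilpotent_of_mulEquiv (Subgroup.subgroupOfEquivOfLe hfrat)
  by_cases hu : ∃ u : ℕ, u.Prime ∧ u ≠ s ∧ u ∣ Nat.card L
  · -- the centre of `M ∩ N`
    obtain ⟨u, hu, hus, hdvd⟩ := hu
    haveI : Fact u.Prime := ⟨hu⟩
    obtain ⟨U⟩ : Nonempty (Sylow u L) := inferInstance
    obtain ⟨c, hc, hc1⟩ := (Subgroup.bot_or_exists_ne_one _).resolve_left
      (inf_center_ne_bot_of_nilpotent L (U : Subgroup L) (U.ne_bot_of_dvd_card hdvd))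
    have hmem : ∀ g : G, g ∈ M → g ∈ N → ∀ v, v ∈ M → v ∈ N →
        (∀ l : L, ((l : M) : G) * v = v * ((l : M) : G)) → g * v = v * g := fun g hgM hgN v _ _ hl =>
      hl ⟨⟨g, hgM⟩, hgN⟩
    let V : Subgroup G :=
      { carrier := {v | v ∈ M ∧ v ∈ N ∧ (∀ l : L, ((l : M) : G) * v = v * ((l : M) : G)) ∧
          ∃ k, v ^ u ^ k = 1}
        one_mem' := ⟨M.one_mem, N.one_mem, fun l => by rw [mul_one, one_mul], 0, one_pow _⟩
        mul_mem' := by
          rintro x y ⟨hxM, hxN, hxc, i, hi⟩ ⟨hyM, hyN, hyc, j, hj⟩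
          have hxy : Commute x y := hmem x hxM hxN y hyM hyN hyc
          refine ⟨M.mul_mem hxM hyM, N.mul_mem hxN hyN, fun l => ?_, i + j, ?_⟩
          · exact ((show Commute ((l : M) : G) x from hxc l).mul_right (hyc l)).eq
          · rw [hxy.mul_pow, pow_add, pow_mul, hi, one_pow, mul_comm (u ^ i), pow_mul, hj, one_pow,
              one_mul]
        inv_mem' := by
          rintro x ⟨hxM, hxN, hxc, i, hi⟩
          exact ⟨M.inv_mem hxM, N.inv_mem hxN,
            fun l => ((show Commute ((l : M) : G) x from hxc l).inv_right).eq, i,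
            by rw [inv_pow, hi, inv_one]⟩ }
    refine no_pair h M V ?_ hMN (fun v hv => hv.2.1) ?_ ?_ hs hu (fun e => hus e.symm) ?_ ?_ a b ha hb hab
    · have hone : ∀ m ∈ M, ∀ v ∈ V, m * v * m⁻¹ ∈ V := by
        rintro m hm v ⟨hvM, hvN, hvc, k, hk⟩
        refine ⟨M.mul_mem (M.mul_mem hm hvM) (M.inv_mem hm),
          Subgroup.Normal.conj_mem inferInstance v hvN m, fun l => ?_, k,
          by rw [conj_pow, hk, mul_one, mul_inv_cancel]⟩
        have h1 := hvc ⟨⟨m⁻¹ * ((l : M) : G) * m, M.mul_mem (M.mul_mem (M.inv_mem hm) (l : M).2) hm⟩,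
          by
            show m⁻¹ * ((l : M) : G) * m ∈ N
            simpa using Subgroup.Normal.conj_mem (inferInstance : N.Normal) _
              (show ((l : M) : G) ∈ N from l.2) m⁻¹⟩
        calc ((l : M) : G) * (m * v * m⁻¹) = m * (m⁻¹ * ((l : M) : G) * m * v) * m⁻¹ := by group
          _ = m * (v * (m⁻¹ * ((l : M) : G) * m)) * m⁻¹ := by rw [h1]
          _ = m * v * m⁻¹ * ((l : M) : G) := by group
      intro m hm
      refine Subgroup.mem_normalizer_iff.mpr fun v => ⟨hone m hm v, fun hv => ?_⟩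
      have := hone m⁻¹ (M.inv_mem hm) _ hv
      simpa [mul_assoc] using this
    · intro hbot
      have hcV : ((c : M) : G) ∈ V := by
        refine ⟨(c : M).2, c.2, fun l => ?_, ?_⟩
        · exact congrArg (fun z : L => ((z : M) : G)) (Subgroup.mem_center_iff.mp hc.2 l)
        · obtain ⟨k, hk⟩ := U.isPGroup' ⟨c, hc.1⟩
          exact ⟨k, congrArg (fun z : (U : Subgroup L) => (((z : L) : M) : G)) hk⟩
      rw [hbot, Subgroup.mem_bot] at hcV
      exact hc1 (Subtype.ext (Subtype.ext hcV))
    · exact fun x hx y hy => hmem x hx.1 hx.2.1 y hy.1 hy.2.1 hy.2.2.1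
    · exact fun v => ⟨v.2.2.2.2.choose, Subtype.ext v.2.2.2.2.choose_spec⟩
    · exact fun l hlM hlN v hv => hmem l hlM hlN v hv.1 hv.2.1 hv.2.2.1
  · -- `M ∩ N` is an `s`-group
    push Not at hu
    haveI : Fact s.Prime := ⟨hs⟩
    have hLs : IsPGroup s L := IsPGroup.of_card (Nat.eq_prime_pow_of_unique_prime_dvd
      Nat.card_pos.ne' fun {d} hd hdd => by
        by_contra hne
        exact hu d hd hne hdd)
    obtain ⟨t, ht, htQ, hts, htr⟩ : ∃ t : ℕ, t.Prime ∧ t ∣ Nat.card (G ⧸ N) ∧ t ≠ s ∧ t ≠ r := by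
      by_contra! hno
      refine hQ (CfsgLib.Chars.Apps.isSolvable_of_primeFactors_subset _ hs hr fun q hq hd => ?_)
      by_cases hqs : q = s
      · exact Or.inl hqs
      · exact Or.inr (hno q hq hd hqs)
    haveI : Fact t.Prime := ⟨ht⟩
    -- an element of order `t` in the supplement
    have hNM : N.relIndex M = N.index := by
      have hsurj : Function.Surjective ((QuotientGroup.mk' N).comp M.subtype) := by
        intro q
        obtain ⟨g, rfl⟩ := QuotientGroup.mk'_surjective N q
        have hg : g ∈ ((M ⊔ N : Subgroup G) : Set G) := by rw [hMN]; trivial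
        rw [Subgroup.mul_normal M N] at hg
        obtain ⟨m, hm, n, hn, rfl⟩ := hg
        refine ⟨⟨m, hm⟩, QuotientGroup.eq.mpr ?_⟩
        simpa using hn
      have := Subgroup.index_comap_of_surjective (⊥ : Subgroup (G ⧸ N)) hsurj
      rwa [← Subgroup.comap_comap, MonoidHom.comap_bot, QuotientGroup.ker_mk',
        Subgroup.index_bot, ← Subgroup.index_eq_card] at this
    obtain ⟨x, hx⟩ := exists_prime_orderOf_dvd_card' (G := M) t (by
      refine dvd_trans ?_ ⟨Nat.card L, (L.index_mul_card).symm⟩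
      show t ∣ N.relIndex M
      rw [hNM, Subgroup.index_eq_card]
      exact htQ)
    have hxN : (x : G) ∉ N := fun hh => by
      obtain ⟨k, hk⟩ := hLs ⟨x, hh⟩
      have h1 : x ^ s ^ k = 1 := congrArg Subtype.val hk
      have h2 : t ∣ s ^ k := hx ▸ orderOf_dvd_of_pow_eq_one h1
      exact hts ((Nat.prime_dvd_prime_iff_eq ht hs).mp (ht.dvd_of_dvd_pow h2))
    have hxt : x ^ t = 1 := hx ▸ pow_orderOf_eq_one x
    have hxtN : (x : G) ^ t ∈ N := by
      have := congrArg Subtype.val hxt
      rw [SubmonoidClass.coe_pow, OneMemClass.coe_one] at this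
      rw [this]; exact N.one_mem
    -- the centre of `R`
    set V : Subgroup G := R' ⊓ Subgroup.centralizer (R' : Set G) with hV
    have hVR : V ≤ R' := inf_le_left
    have hR'N : R' ≤ N := Subgroup.map_subtype_le _
    have hR'p : IsPGroup r R' := R.isPGroup'.map _
    have hVc : ∀ a ∈ V, ∀ b ∈ V, a * b = b * a := fun a ha b hb =>
      Subgroup.mem_centralizer_iff.mp hb.2 a ha.1
    have hV1 : V ≠ ⊥ := by
      have hRne : (R : Subgroup N) ≠ ⊥ := R.ne_bot_of_dvd_card hrN
      haveI : Nontrivial R' := by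
        refine (Subgroup.nontrivial_iff_ne_bot _).mpr fun hb => hRne ?_
        rwa [hR', Subgroup.map_eq_bot_iff_of_injective _ N.subtype_injective] at hb
      haveI := hR'p.center_nontrivial
      obtain ⟨⟨c, hc⟩, hne⟩ := exists_ne (1 : Subgroup.center R')
      intro hb
      have hcV : (c : G) ∈ V := ⟨c.2, Subgroup.mem_centralizer_iff.mpr fun y hy =>
        congrArg Subtype.val (Subgroup.mem_center_iff.mp hc ⟨y, hy⟩)⟩
      rw [hb, Subgroup.mem_bot] at hcV
      exact hne (Subtype.ext (Subtype.ext hcV))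
    have hMV : M ≤ Subgroup.normalizer (V : Set G) := by
      intro m hm
      have hm' := hMR hm
      have hone : ∀ m ∈ Subgroup.normalizer (R' : Set G), ∀ v ∈ V, m * v * m⁻¹ ∈ V := by
        intro m hm v hv
        refine ⟨(Subgroup.mem_normalizer_iff.mp hm v).mp hv.1, Subgroup.mem_centralizer_iff.mpr fun y hy => ?_⟩
        have hy' : m⁻¹ * y * m ∈ R' := by
          have := (Subgroup.mem_normalizer_iff.mp (inv_mem hm) y).mp hy
          simpa using this
        have h1 := Subgroup.mem_centralizer_iff.mp hv.2 _ hy'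
        calc y * (m * v * m⁻¹) = m * (m⁻¹ * y * m * v) * m⁻¹ := by group
          _ = m * (v * (m⁻¹ * y * m)) * m⁻¹ := by rw [h1]
          _ = m * v * m⁻¹ * y := by group
      refine Subgroup.mem_normalizer_iff.mpr fun v => ⟨hone m hm' v, fun hv => ?_⟩
      have := hone m⁻¹ (inv_mem hm') _ hv
      simpa [mul_assoc] using this
    have hVr : IsPGroup r V := hR'p.to_le hVR
    letI : CommGroup V :=
      { (inferInstance : Group V) with mul_comm := fun a b => Subtype.ext (hVc a a.2 b b.2) }
    let φ : M →* MulAut V := (V.normalizerMonoidHom).comp (Subgroup.inclusion hMV)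
    haveI : Finite (MulAut V) := Finite.of_injective (fun f => (f : V → V)) DFunLike.coe_injective
    haveI : L.Normal := Subgroup.normal_subgroupOf
    set Z : Subgroup (MulAut V) := L.map φ ⊓ Subgroup.centralizer (L.map φ : Set (MulAut V)) with hZ
    have hZs : IsPGroup s Z := (hLs.map φ).to_le inf_le_left
    have hfix : ∀ v : V, φ x v = v → v = 1 := by
      intro v hv
      have hv' : (x : G) * (v : G) * (x : G)⁻¹ = v := congrArg Subtype.val hv
      refine Subtype.ext (not_commute h hxN ht hr htr hxtN (hR'N (hVR v.2)) ?_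
        (mul_inv_eq_iff_eq_mul.mp hv'))
      obtain ⟨k, hk⟩ := hVr v
      exact ⟨k, congrArg Subtype.val hk⟩
    have hfree : ∀ z ∈ Z, Commute z (φ x) → z = 1 := by
      intro z hz hzx
      obtain ⟨l, hl, rfl⟩ := hz.1
      let S := {k : L // φ (k : M) = φ l}
      let e : {k : L // φ (k : M) = 1} ≃ S :=
        { toFun := fun k => ⟨⟨l, hl⟩ * k.1, by rw [Subgroup.coe_mul, map_mul, k.2, mul_one]⟩
          invFun := fun k => ⟨⟨l, hl⟩⁻¹ * k.1, by
            rw [Subgroup.coe_mul, map_mul, k.2, Subgroup.coe_inv, map_inv, inv_mul_cancel]⟩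
          left_inv := fun k => Subtype.ext (inv_mul_cancel_left _ _)
          right_inv := fun k => Subtype.ext (mul_inv_cancel_left _ _) }
      haveI : Fintype S := Fintype.ofFinite S
      have hS : ¬ t ∣ Fintype.card S := by
        rw [← Nat.card_eq_fintype_card, ← Nat.card_congr e]
        obtain ⟨i, hi⟩ := IsPGroup.iff_card.mp (hLs.to_subgroup ((φ.comp L.subtype).ker))
        intro hd
        have hd' : t ∣ Nat.card ↥((φ.comp L.subtype).ker) := hd
        rw [hi] at hd'
        exact hts ((Nat.prime_dvd_prime_iff_eq ht hs).mp (ht.dvd_of_dvd_pow hd'))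
      have hmap : ∀ (g : M), Commute (φ g) (φ l) → ∀ k : S, φ (g * (k.1 : M) * g⁻¹) = φ l := by
        intro g hg k
        rw [map_mul, map_mul, map_inv, k.2, hg.eq, mul_inv_cancel_right]
      let c : (g : M) → Commute (φ g) (φ l) → S → S := fun g hg k =>
        ⟨⟨g * (k.1 : M) * g⁻¹, Subgroup.Normal.conj_mem inferInstance _ k.1.2 g⟩, hmap g hg k⟩
      let σ : Equiv.Perm S :=
        { toFun := c x hzx.symm
          invFun := c x⁻¹ (by rw [map_inv]; exact hzx.symm.inv_left)
          left_inv := fun k => Subtype.ext (Subtype.ext (by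
            show x⁻¹ * (x * (k.1 : M) * x⁻¹) * x⁻¹⁻¹ = (k.1 : M); group))
          right_inv := fun k => Subtype.ext (Subtype.ext (by
            show x * (x⁻¹ * (k.1 : M) * x⁻¹⁻¹) * x⁻¹ = (k.1 : M); group)) }
      have hpow : ∀ (n : ℕ) (k : S), (((σ ^ n) k).1 : M) = x ^ n * (k.1 : M) * (x ^ n)⁻¹ := by
        intro n k
        induction n with
        | zero => simp
        | succ n ih =>
          rw [pow_succ', Equiv.Perm.mul_apply]
          show x * (((σ ^ n) k).1 : M) * x⁻¹ = _
          rw [ih, pow_succ']; group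
      obtain ⟨k, hk⟩ := Equiv.Perm.exists_fixed_point_of_prime (n := 1) hS (σ := σ) (by
        rw [pow_one]
        refine Equiv.ext fun k => Subtype.ext (Subtype.ext ?_)
        rw [hpow, hxt]; simp)
      have hk1 : x * (k.1 : M) * x⁻¹ = (k.1 : M) := congrArg (fun q : S => (q.1 : M)) hk
      have hk0 : ((k.1 : M) : G) = 1 := by
        refine not_commute h hxN ht hs hts hxtN k.1.2 ?_ ?_
        · obtain ⟨i, hi⟩ := hLs k.1
          exact ⟨i, congrArg (fun q : L => ((q : M) : G)) hi⟩
        · exact congrArg Subtype.val (mul_inv_eq_iff_eq_mul.mp hk1)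
      rw [← k.2, show (k.1 : M) = 1 from Subtype.ext hk0, map_one]
    have hcop : (Nat.card Z).Coprime (Nat.card V) := by
      obtain ⟨i, hi⟩ := IsPGroup.iff_card.mp hZs
      obtain ⟨j, hj⟩ := IsPGroup.iff_card.mp hVr
      rw [hi, hj]
      exact Nat.Coprime.pow _ _ ((Nat.coprime_primes hs hr).mpr fun e => hrs e.symm)
    have hnorm : ∀ z ∈ Z, φ x * z * (φ x)⁻¹ ∈ Z := by
      intro z hz
      refine ⟨?_, Subgroup.mem_centralizer_iff.mpr fun y hy => ?_⟩
      · obtain ⟨l, hl, rfl⟩ := hz.1
        exact ⟨x * l * x⁻¹, Subgroup.Normal.conj_mem inferInstance l hl x, by simp⟩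
      · obtain ⟨l, hl, rfl⟩ := hy
        have h1 := Subgroup.mem_centralizer_iff.mp hz.2 _
          (Subgroup.mem_map_of_mem φ (Subgroup.Normal.conj_mem (inferInstance : L.Normal) l hl x⁻¹))
        rw [inv_inv, map_mul, map_mul, map_inv] at h1
        calc φ l * (φ x * z * (φ x)⁻¹) = φ x * ((φ x)⁻¹ * φ l * φ x * z) * (φ x)⁻¹ := by group
          _ = φ x * (z * ((φ x)⁻¹ * φ l * φ x)) * (φ x)⁻¹ := by rw [h1]
          _ = φ x * z * (φ x)⁻¹ * φ l := by group
    have hZbot : Z = ⊥ := eq_bot_iff.mpr fun z hz => Subgroup.mem_bot.mpr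
      (fixed_of_frobenius Z (fun a ha b hb => Subgroup.mem_centralizer_iff.mp hb.2 a ha.1) hcop (φ x)
        (by rw [← map_pow, hxt, map_one]) hnorm hfree hfix hz)
    have hLbot : L.map φ = ⊥ := by
      by_contra hne
      haveI : Nontrivial (L.map φ) := (Subgroup.nontrivial_iff_ne_bot _).mpr hne
      haveI := (hLs.map φ).center_nontrivial
      obtain ⟨⟨c, hc⟩, hne'⟩ := exists_ne (1 : Subgroup.center (L.map φ))
      have hcZ : (c : MulAut V) ∈ Z := ⟨c.2, Subgroup.mem_centralizer_iff.mpr fun y hy =>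
        congrArg Subtype.val (Subgroup.mem_center_iff.mp hc ⟨y, hy⟩)⟩
      rw [hZbot, Subgroup.mem_bot] at hcZ
      exact hne' (Subtype.ext (Subtype.ext hcZ))
    refine no_pair h M V hMV hMN (hVR.trans hR'N) hV1 hVc hs hr hrs.symm hVr ?_ a b ha hb hab
    intro l hlM hlN v hv
    have h1 : φ ⟨l, hlM⟩ ∈ L.map φ := Subgroup.mem_map_of_mem φ hlN
    rw [hLbot, Subgroup.mem_bot] at h1
    have h2 := congrArg Subtype.val (DFunLike.congr_fun h1 (⟨v, hv⟩ : V))
    exact mul_inv_eq_iff_eq_mul.mp h2

/-- The quotient is solvable. -/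
theorem solvable_quotient [N.Normal] (hns : ¬ Group.IsSolvable ↥N)
    (h : ∀ x : G, x ∉ N → IsPrimePow (orderOf x)) : Group.IsSolvable (G ⧸ N) := by
  by_contra hQ
  set Q := G ⧸ N
  have hpair := fun {s : ℕ} (hs : s.Prime) => pair_excluded hns h hQ hs
  have hodd : ∀ K : Subgroup Q, Odd (Nat.card K) → Group.IsSolvable K := by
    intro K hK
    haveI : IsZGroup K := ⟨fun p hp P => by
      haveI : Fact p.Prime := ⟨hp⟩
      by_cases hp2 : p = 2
      · subst hp2
        obtain ⟨i, hi⟩ := IsPGroup.iff_card.mp P.isPGroup'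
        have h1 : Nat.card (P : Subgroup K) = 1 := by
          rcases Nat.eq_zero_or_pos i with rfl | hpos
          · exact hi
          · exact absurd ((dvd_pow_self 2 hpos.ne').trans (hi ▸ Subgroup.card_subgroup_dvd_card _))
              hK.not_two_dvd_nat
        haveI : Subsingleton (P : Subgroup K) := (Nat.card_eq_one_iff_unique.mp h1).1
        exact isCyclic_of_subsingleton
      · refine CfsgLib.PGroup.isCyclic_of_unique_subgroup hp2 P.isPGroup' fun x y hx hy => ?_
        by_cases hc : Commute x y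
        · have h1 := hpair hp (((x : K) : Q)) (((y : K) : Q))
            (by rw [Subgroup.orderOf_coe, Subgroup.orderOf_coe, hx])
            (by rw [Subgroup.orderOf_coe, Subgroup.orderOf_coe, hy])
            (congrArg (fun q : (P : Subgroup K) => ((q : K) : Q)) hc.eq)
          obtain ⟨k, hk⟩ := h1
          exact ⟨k, Subtype.ext (Subtype.ext (by simpa using hk))⟩
        · exfalso
          -- a central element of order `p`
          haveI : Nontrivial (P : Subgroup K) := ⟨⟨x, 1, fun he => by
            rw [he, orderOf_one] at hx; exact hp.ne_one hx.symm⟩⟩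
          haveI := P.isPGroup'.center_nontrivial
          obtain ⟨c, hc0⟩ := exists_prime_orderOf_dvd_card' (G := Subgroup.center (P : Subgroup K)) p
            (by
              obtain ⟨j, hj⟩ := (P.isPGroup'.to_subgroup (Subgroup.center _)).exists_card_eq
              rw [hj]
              refine dvd_pow_self p fun h0 => ?_
              have := Finite.one_lt_card (α := Subgroup.center (P : Subgroup K))
              rw [hj, h0, pow_zero] at this
              omega)
          have hcen : ∀ w : (P : Subgroup K), orderOf w = p → w ∈ Subgroup.zpowers (c : (P : Subgroup K)) := by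
            intro w hw
            have h1 := hpair hp ((((c : (P : Subgroup K)) : K)) : Q) ((w : K) : Q)
              (by rw [Subgroup.orderOf_coe, Subgroup.orderOf_coe, Subgroup.orderOf_coe, hc0])
              (by rw [Subgroup.orderOf_coe, Subgroup.orderOf_coe, hw])
              (congrArg (fun q : (P : Subgroup K) => ((q : K) : Q)) (Subgroup.mem_center_iff.mp c.2 w)).symm
            obtain ⟨k, hk⟩ := h1
            exact ⟨k, Subtype.ext (Subtype.ext (by simpa using hk))⟩
          obtain ⟨i, hi⟩ := hcen x hx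
          obtain ⟨j, hj⟩ := hcen y hy
          exact hc (hi ▸ hj ▸ (Commute.refl (c : (P : Subgroup K))).zpow_zpow i j)⟩
    infer_instance
  by_cases heven : Even (Nat.card Q)
  · obtain ⟨z, hz, hzs⟩ := CfsgLib.ZStar.exists_inZStar_of_no_klein heven fun E hE => by
      haveI : Fintype E := Fintype.ofFinite E
      have h4 : Nat.card E = 4 := hE.card_four
      have hsq : ∀ e : E, e ^ 2 = 1 := fun e => by
        rw [← hE.exponent_two]; exact Monoid.pow_exponent_eq_one e
      haveI : Nontrivial E := Finite.one_lt_card_iff_nontrivial.mp (by omega)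
      obtain ⟨a, ha⟩ := exists_ne (1 : E)
      obtain ⟨b, hb⟩ : ∃ b : E, b ∉ Subgroup.zpowers a := by
        by_contra! hall
        have h1 : Nat.card (Subgroup.zpowers a) = Nat.card E := by
          rw [show Subgroup.zpowers a = ⊤ from eq_top_iff.mpr fun e _ => hall e, Subgroup.card_top]
        rw [Nat.card_zpowers, orderOf_eq_prime (hsq a) ha, h4] at h1
        omega
      have hb1 : b ≠ 1 := fun h1 => hb (h1 ▸ one_mem _)
      have hc : Commute (a : Q) (b : Q) := by
        refine congrArg Subtype.val (show a * b = b * a from ?_)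
        exact mul_comm_of_exponent_two hE.exponent_two a b
      obtain ⟨k, hk⟩ := hpair Nat.prime_two (a : Q) (b : Q)
        (by rw [Subgroup.orderOf_coe, orderOf_eq_prime (hsq a) ha])
        (by rw [Subgroup.orderOf_coe, orderOf_eq_prime (hsq b) hb1]) hc
      exact hb ⟨k, Subtype.ext (by simpa using hk)⟩
    set K := pPrimeCore 2 Q with hK
    have hKodd : Odd (Nat.card K) := by
      rw [← Nat.not_even_iff_odd, even_iff_two_dvd]
      exact CfsgLib.Constrained.pPrimeCore_not_dvd
    have hzK : z ∉ K := fun hh => by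
      have : orderOf (⟨z, hh⟩ : K) = 2 := by rw [← Subgroup.orderOf_coe]; exact hz
      exact hKodd.not_two_dvd_nat (this ▸ orderOf_dvd_natCard _)
    have h2grp : IsPGroup 2 (Q ⧸ K) := by
      intro y
      obtain ⟨q, rfl⟩ := QuotientGroup.mk'_surjective K y
      set π := QuotientGroup.mk' K
      have hzc : Commute (π q) (π z) := by
        have h1 : π (q * z * q⁻¹ * z⁻¹) = 1 := (QuotientGroup.eq_one_iff _).mpr (hzs q)
        rw [map_mul, map_mul, map_mul, map_inv, map_inv] at h1
        exact mul_inv_eq_iff_eq_mul.mp (mul_inv_eq_one.mp h1)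
      by_contra hno
      obtain ⟨p, hp, hp2, hpd⟩ : ∃ p : ℕ, p.Prime ∧ p ≠ 2 ∧ p ∣ orderOf (π q) := by
        by_contra! hall
        have e := Nat.eq_prime_pow_of_unique_prime_dvd (p := 2) (orderOf_pos (π q)).ne'
          fun {d} hd hdd => by by_contra hne; exact hall d hd hne hdd
        refine hno ⟨(orderOf (π q)).primeFactorsList.length, ?_⟩
        rw [← e]
        exact pow_orderOf_eq_one _
      set w := π q ^ (orderOf (π q) / p) with hw
      have hwo : orderOf w = p := orderOf_pow_orderOf_div (orderOf_pos _).ne' hpd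
      have hzo : orderOf (π z) = 2 := by
        refine orderOf_eq_prime ?_ fun h1 => hzK ((QuotientGroup.eq_one_iff _).mp h1)
        have hz2 : z ^ 2 = 1 := orderOf_dvd_iff_pow_eq_one.mp (dvd_of_eq hz)
        rw [← map_pow, hz2, map_one]
      obtain ⟨g, hg⟩ := (QuotientGroup.mk'_surjective K).comp (QuotientGroup.mk'_surjective N) (w * π z)
      have hcomm : Commute w (π z) := hzc.pow_left _
      have hprod : orderOf (w * π z) = p * 2 := by
        rw [hcomm.orderOf_mul_eq_mul_orderOf_of_coprime (by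
          rw [hwo, hzo]; exact (Nat.coprime_primes hp Nat.prime_two).mpr hp2), hwo, hzo]
      have hgN : g ∉ N := fun hh => by
        have h1 : w * π z = 1 := by
          rw [← hg]
          show π (QuotientGroup.mk' N g) = 1
          rw [show (QuotientGroup.mk' N g) = 1 from (QuotientGroup.eq_one_iff _).mpr hh, map_one]
        rw [h1, orderOf_one] at hprod
        omega
      obtain ⟨l, i, hl, hi, hpi⟩ := (isPrimePow_nat_iff _).mp (h g hgN)
      have hd : p * 2 ∣ l ^ i := by
        rw [hpi, ← hprod, ← hg]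
        exact orderOf_map_dvd (π.comp (QuotientGroup.mk' N)) g
      have h1 := (Nat.prime_dvd_prime_iff_eq hp hl).mp (hp.dvd_of_dvd_pow ((dvd_mul_right p 2).trans hd))
      have h2 := (Nat.prime_dvd_prime_iff_eq Nat.prime_two hl).mp
        (Nat.prime_two.dvd_of_dvd_pow ((dvd_mul_left 2 p).trans hd))
      exact hp2 (h1.trans h2.symm)
    haveI : Group.IsNilpotent (Q ⧸ K) := h2grp.isNilpotent
    haveI := hodd K hKodd
    exact hQ (Group.isSolvable_of_ker_le_range K.subtype (QuotientGroup.mk' K)
      (by rw [QuotientGroup.ker_mk', Subgroup.range_subtype]))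
  · refine hQ ?_
    haveI := hodd ⊤ (by rw [Subgroup.card_top]; exact Nat.not_even_iff_odd.mp heven)
    exact Group.isSolvable_of_surjective (f := (⊤ : Subgroup Q).subtype) (fun q => ⟨⟨q, trivial⟩, rfl⟩)

end CfsgLib.CPOutside
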